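import Cfsg.Agent.H865.EE.OData

/-! one shared copy of an on-demand lemma (helper986) -/

set_option autoImplicit false

namespace Cfsg.Agent.H986.EqD.OdVal

theorem keep : True := by
  have := @Cfsg.Agent.H865.EE.OD.val.eq_4.{0}
  trivial

end Cfsg.Agent.H986.EqD.OdVal
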