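import Cfsg.Agent.H687.EqD.EvFb

/-! superseded by `Cfsg.Agent.H687.EqD.EvFb` (helper986) -/

set_option autoImplicit false

namespace Cfsg.Agent.H986.EqD.CcpEvF

theorem keep : True := trivial

end Cfsg.Agent.H986.EqD.CcpEvF
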